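import Cfsg.Agent.H465.Gen.BDisp
import Cfsg.Agent.H293.IF.BabyQ
import Cfsg.Agent.H999.IF.EngB

/-!
# S5719, the Baby Monster: no transposition (helper465)

* `eq_top_of` : a subgroup `A` of the model containing a transposition and such that `|C(t) : C_A(t)| ≤ 1023` for all its
  transpositions `t` is the whole group;
* `no_2A` : `A` contains no transposition if `IF A Γ`.
-/

set_option autoImplicit false
set_option linter.unusedSectionVars false

namespace Cfsg.Agent.H465.IF.BOne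

open Subgroup
open Cfsg.Agent.H465.Gen Cfsg.Agent.H465.Gen.BAbs
open Cfsg.Agent.BabyM.Model Cfsg.Agent.H995.BSch
open Cfsg.Agent.H465.Gen.BDisp (τ τ_mk ts τ_smul t₀_sq)
open Cfsg.Agent.BabyM.Inst (M)
open Cfsg.Agent.H209.Fxy

/-- the central involution -/
noncomputable def z : M.G := ⟨M.z, BabyM.Instance.all.C_le_G BabyM.Instance.all.grp.z_mem_C⟩

/-- `O₂(C(z))` -/
noncomputable def Q : Subgroup M.G := M.Q.subgroupOf M.G

theorem finG : Finite M.G := BabyM.Instance.all.finite_G

theorem Q_le_G : M.Q ≤ M.G := fun _ h => BabyM.Instance.all.C_le_G (BabyM.Instance.all.grp.Q_le h)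

theorem t₀_mem : BDisp.t₀ ∈ Q := BabyM.Instance.all.rep.t₀_mem

theorem z_sq : z * z = 1 := Subtype.ext BabyM.Instance.all.grp.z_sq

theorem z_comm {x : M.G} (hx : x ∈ Q) : x * z = z * x :=
  Subtype.ext (BabyM.Instance.all.grp.z_comm x (BabyM.Instance.all.grp.Q_le hx))

theorem Q_comm {x y : M.G} (hx : x ∈ Q) (hy : y ∈ Q) : x * y = y * x ∨ x * y = y * x * z :=
  (BabyM.Instance.all.grp.Q_comm x hx y hy).imp (fun h => Subtype.ext h) (fun h => Subtype.ext h)

theorem card_Q : Nat.card Q = 2 ^ 23 := by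
  unfold Q
  rw [Nat.card_congr (subgroupOfEquivOfLe Q_le_G).toEquiv]
  exact BabyM.Instance.all.grp.Q_card

/-- the centraliser of `t₀` in `Q` -/
noncomputable def P : Subgroup M.G := Q ⊓ centralizer ({BDisp.t₀} : Set M.G)

theorem card_P : 2 ^ 22 ≤ Nat.card P := by
  have hG := finG
  have h2 : (centralizer ({BDisp.t₀} : Set M.G)).relIndex Q ∣ 2 := by
    rw [relIndex_dvd_two_iff]
    by_cases h : ∃ a ∈ Q, ¬ a * BDisp.t₀ = BDisp.t₀ * a
    · obtain ⟨a, ha, hna⟩ := h
      refine ⟨a, ha, fun b hb => ?_⟩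
      by_cases hb' : b * BDisp.t₀ = BDisp.t₀ * b
      · exact Or.inr (mem_centralizer_singleton_iff.2 hb')
      · left
        rw [mem_centralizer_singleton_iff]
        have e1 := (Q_comm ha t₀_mem).resolve_left hna
        have e2 := (Q_comm hb t₀_mem).resolve_left hb'
        have e3 := z_comm ha
        calc b * a * BDisp.t₀ = b * (a * BDisp.t₀) := by group
          _ = b * (BDisp.t₀ * a * z) := by rw [e1]
          _ = (b * BDisp.t₀) * (a * z) := by group
          _ = (BDisp.t₀ * b * z) * (a * z) := by rw [e2]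
          _ = BDisp.t₀ * b * (z * (a * z)) := by group
          _ = BDisp.t₀ * b * (z * (z * a)) := by rw [e3]
          _ = BDisp.t₀ * b * ((z * z) * a) := by group
          _ = _ := by rw [z_sq]; group
    · refine ⟨1, Q.one_mem, fun b hb => Or.inr (mem_centralizer_singleton_iff.2 ?_)⟩
      by_contra hb'
      exact h ⟨b, hb, hb'⟩
  have h3 : P.relIndex Q = (centralizer ({BDisp.t₀} : Set M.G)).relIndex Q := by
    unfold P
    rw [inf_comm, inf_relIndex_right]
  have h4 : P.relIndex Q ≤ 2 := by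
    rw [h3]; exact Nat.le_of_dvd (by norm_num) h2
  have h5 : Nat.card P * P.relIndex Q = Nat.card Q := by
    have h6 := Subgroup.card_mul_index (P.subgroupOf Q)
    have hle : P ≤ Q := inf_le_left
    rw [Nat.card_congr (subgroupOfEquivOfLe hle).toEquiv] at h6
    exact h6
  rw [card_Q] at h5
  have h6 : Nat.card P * P.relIndex Q ≤ Nat.card P * 2 := Nat.mul_le_mul_left _ h4
  rw [h5] at h6
  norm_num at h6 ⊢
  omega

/-- abelian subgroups of `Q` -/
theorem abel {S : Subgroup M.G} (hS : S ≤ Q) (hc : ∀ x ∈ S, ∀ y ∈ S, x * y = y * x) : Nat.card S ≤ 2 ^ 12 := by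
  have h1 := (H293.IF.dat BabyM.Instance.all).abel (S := S.map M.G.subtype) (by
    rintro _ ⟨x, hx, rfl⟩
    exact hS hx) (by
    rintro _ ⟨x, hx, rfl⟩ _ ⟨y, hy, rfl⟩
    rw [← map_mul, ← map_mul, hc x hx y hy])
  rwa [← Nat.card_congr (S.equivMapOfInjective _ M.G.subtype_injective).toEquiv] at h1

/-- a subgroup of small relative index in `C(t₀)` contains `z` -/
theorem z_mem_of {D : Subgroup M.G} (h : D.relIndex (centralizer ({BDisp.t₀} : Set M.G)) ≤ 1023) : z ∈ D := by
  have hG := finG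
  by_contra hz
  have h1 : D.relIndex P ≤ 1023 := by
    refine le_trans (relIndex_le_of_le_right inf_le_right ?_) h
    unfold Subgroup.relIndex
    exact Subgroup.index_ne_zero_of_finite
  have h2 : Nat.card ↥(D ⊓ P) ≤ 2 ^ 12 := by
    refine abel (inf_le_right.trans inf_le_left) fun x hx y hy => ?_
    refine (Q_comm hx.2.1 hy.2.1).resolve_right fun e => hz ?_
    have h3 : z = (y * x)⁻¹ * (x * y) := by rw [e]; group
    rw [h3]
    exact D.mul_mem (D.inv_mem (D.mul_mem hy.1 hx.1)) (D.mul_mem hx.1 hy.1)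
  have h5 : Nat.card ↥(D ⊓ P) * (D ⊓ P).relIndex P = Nat.card P := by
    have h6 := Subgroup.card_mul_index ((D ⊓ P).subgroupOf P)
    rw [Nat.card_congr (subgroupOfEquivOfLe (inf_le_right : D ⊓ P ≤ P)).toEquiv] at h6
    exact h6
  rw [inf_relIndex_right] at h5
  have h6 := card_P
  have h7 : Nat.card ↥(D ⊓ P) * D.relIndex P ≤ 2 ^ 12 * 1023 := Nat.mul_le_mul h2 h1
  rw [h5] at h7
  norm_num at h6 h7
  omega

theorem relIndex_conj {A : Subgroup M.G} (g t : M.G) :
    (A.map (MulAut.conj g⁻¹).toMonoidHom).relIndex (centralizer ({t} : Set M.G)) =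
      A.relIndex (centralizer ({g * t * g⁻¹} : Set M.G)) := by
  have h4 : (centralizer ({t} : Set M.G)) =
      (centralizer ({g * t * g⁻¹} : Set M.G)).map (MulAut.conj g⁻¹).toMonoidHom := by
    ext x
    rw [Subgroup.mem_map_equiv, mem_centralizer_singleton_iff, mem_centralizer_singleton_iff, MulAut.conj_symm_apply,
      inv_inv]
    constructor
    · intro h
      calc g * x * g⁻¹ * (g * t * g⁻¹) = g * (x * t) * g⁻¹ := by group
        _ = g * t * g⁻¹ * (g * x * g⁻¹) := by rw [h]; group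
    · intro h
      calc x * t = g⁻¹ * (g * x * g⁻¹ * (g * t * g⁻¹)) * g := by group
        _ = t * x := by rw [h]; group
  rw [h4]
  exact relIndex_map_map_of_injective _ _ (MulAut.conj g⁻¹).injective

/-- **Subgroups with transpositions.** -/
theorem eq_top_of {A : Subgroup M.G}
    (hA : ∀ t ∈ A, IsConj BDisp.t₀ t → A.relIndex (centralizer ({t} : Set M.G)) ≤ 1023)
    {t : M.G} (ht : t ∈ A) (hc : IsConj BDisp.t₀ t) : A = ⊤ := by
  obtain ⟨q, hq, hq1, hq2⟩ := BabyM.Instance.all.d₁_mem'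
  have hqG : q ∈ M.G := Q_le_G hq
  set y₁ : X M := QuotientGroup.mk ⟨q, hqG⟩ with hy₁
  have hcol : cX M (QuotientGroup.mk 1) y₁ = 1 := by
    rw [hy₁, cX_mk BabyM.Instance.all]
    show col M ((1 : BabyM.Conc.V ≃ₗ[ℚ] BabyM.Conc.V) M.d₀) (q M.d₀) = 1
    rw [hq1]
    exact col_d₀_d₁ BabyM.Instance.all
  have hτ₁ : τ y₁ = BDisp.t₀ * z := by
    rw [hy₁, τ_mk]
    refine Subtype.ext ?_
    show q * M.t₀ * q⁻¹ = M.t₀ * M.z
    have h1 := BabyM.Instance.all.grp.z_comm q⁻¹ (M.C.inv_mem (BabyM.Instance.all.grp.Q_le hq))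
    rw [hq2, mul_assoc, ← h1]
    group
  have hτ₀ : τ (QuotientGroup.mk 1 : X M) = BDisp.t₀ := by rw [τ_mk]; group
  have hall : ∀ y, τ y ∈ A := by
    obtain ⟨k, hk⟩ := isConj_iff.1 hc
    have hx : τ (QuotientGroup.mk k : X M) ∈ A := by rw [τ_mk, hk]; exact ht
    refine fun y => ts.connected (P := fun y => τ y ∈ A) ?_ hx y
    intro x y hx hxy
    obtain ⟨g, rfl, rfl⟩ := ts.col.tr _ _ _ _ (hcol.trans hxy.symm)
    rw [τ_smul, hτ₀] at hx
    rw [τ_smul, hτ₁]
    have h1 := hA _ hx (isConj_iff.2 ⟨g, rfl⟩)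
    rw [← relIndex_conj] at h1
    have h2 := z_mem_of h1
    rw [Subgroup.mem_map_equiv, MulAut.conj_symm_apply, inv_inv] at h2
    have h3 : g * (BDisp.t₀ * z) * g⁻¹ = g * BDisp.t₀ * g⁻¹ * (g * z * g⁻¹) := by group
    rw [h3]
    exact A.mul_mem hx h2
  rw [eq_top_iff, ← ts.gen, closure_le]
  rintro _ ⟨y, rfl⟩
  exact hall y

theorem hna : ∃ a b : M.G, a * b ≠ b * a := by
  by_contra hcon
  push Not at hcon
  have h1 := BDisp.center_eq_one BDisp.t₀ fun k => hcon _ _
  have h2 := BabyM.Instance.all.card_cent BabyM.Instance.tr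
  rw [show (⟨M.t₀, BabyM.Instance.all.C_le_G BabyM.Instance.all.t₀_C⟩ : M.G) = BDisp.t₀ from rfl, h1] at h2
  have h3 : centralizer ({1} : Set M.G) = ⊤ := by
    rw [Subgroup.eq_top_iff']
    intro x
    rw [mem_centralizer_singleton_iff, mul_one, one_mul]
  rw [h3, Subgroup.card_top, BabyM.Instance.all.card_G] at h2
  omega

theorem index_t₀ : (centralizer ({BDisp.t₀} : Set M.G)).index = 13571955000 := by
  have := finG
  have h1 := card_mul_index (centralizer ({BDisp.t₀} : Set M.G))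
  have h2 := BabyM.Instance.all.card_cent BabyM.Instance.tr
  rw [show (⟨M.t₀, BabyM.Instance.all.C_le_G BabyM.Instance.all.t₀_C⟩ : M.G) = BDisp.t₀ from rfl] at h2
  rw [h2, BabyM.Instance.all.card_G] at h1
  omega

theorem index_conj {t u : M.G} (h : IsConj t u) :
    (centralizer ({u} : Set M.G)).index = (centralizer ({t} : Set M.G)).index := by
  obtain ⟨g, rfl⟩ := isConj_iff.1 h
  have h1 : (centralizer ({g * t * g⁻¹} : Set M.G)) = (centralizer ({t} : Set M.G)).map (MulAut.conj g).toMonoidHom := by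
    ext x
    rw [Subgroup.mem_map_equiv, mem_centralizer_singleton_iff, mem_centralizer_singleton_iff, MulAut.conj_symm_apply]
    constructor
    · intro h
      calc g⁻¹ * x * g * t = g⁻¹ * (x * (g * t * g⁻¹)) * g := by group
        _ = t * (g⁻¹ * x * g) := by rw [h]; group
    · intro h
      calc x * (g * t * g⁻¹) = g * (g⁻¹ * x * g * t) * g⁻¹ := by group
        _ = g * t * g⁻¹ * x := by rw [h]; group
  rw [h1]
  exact Subgroup.index_map_of_bijective (MulAut.conj g).bijective _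

theorem orderOf_t₀ : orderOf BDisp.t₀ = 2 := by
  refine orderOf_eq_prime (by rw [pow_two, t₀_sq]) ?_
  intro h
  exact BabyM.Instance.all.rep.t₀_ne (congrArg Subtype.val h)

/-- **No transpositions.** -/
theorem no_2A {A : Subgroup M.G} {Γ : Subgroup (MulAut M.G)} (h : IF A Γ) {t : M.G} (ht : t ∈ A)
    (hc : IsConj BDisp.t₀ t) : False := by
  have hfin := finG
  have hsim := BabyM.Instance.all.simple
  refine h.ne_top (eq_top_of (fun u hu hcu => ?_) ht hc)
  have ho : orderOf u = 2 := by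
    obtain ⟨g, rfl⟩ := isConj_iff.1 hcu
    rw [← MulAut.conj_apply, MulEquiv.orderOf_eq, orderOf_t₀]
  have h3 := (H999.IFB.IF.E2' h hna hu ho).2.2.2.2 (centralizer ({u} : Set M.G)) le_rfl
  rw [index_conj hcu, index_t₀] at h3
  by_contra hcon
  push Not at hcon
  have h5 : 1024 ^ 5 ≤ A.relIndex (centralizer ({u} : Set M.G)) ^ 5 := Nat.pow_le_pow_left hcon 5
  have h6 := lt_of_le_of_lt h5 h3.1
  norm_num at h6

end Cfsg.Agent.H465.IF.BOne
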