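import Cfsg.Agent.H465.IF.BPair
import Cfsg.Agent.H465.IF.BOne
import Cfsg.Agent.BabyU.ClosModel

/-!
# S5719, the Baby Monster: products of two commuting transpositions (helper465)

`exists_M` : if `A` contains the product of two commuting transpositions, it contains an involution which is conjugate
into the stabiliser `2.²E₆(2)` of the base axis.
-/

set_option autoImplicit false
set_option linter.unusedSectionVars false

namespace Cfsg.Agent.H465.IF.BExM

open Subgroup
open Cfsg.Agent.H465.Gen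
open Cfsg.Agent.BabyM.Inst (M)
open Cfsg.Agent.BabyU.ClosModel (tt zz MM)
open Cfsg.Agent.BabyU.Clos (cls)
open Cfsg.Agent.H209.Fxy

theorem relIndex_MM : (MM M).relIndex (centralizer ({BDisp.t₀} : Set M.G)) ≤ 2 := by
  have h2 : (MM M).relIndex (centralizer ({BDisp.t₀} : Set M.G)) ∣ 2 := by
    rw [relIndex_dvd_two_iff]
    have key : ∀ g : M.G, g ∈ centralizer ({BDisp.t₀} : Set M.G) → g ∈ MM M ∨
        (g : BabyM.Conc.V ≃ₗ[ℚ] BabyM.Conc.V) M.d₀ = - M.d₀ := by
      intro g hg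
      exact BabyM.Instance.all.comm_t₀ BabyM.Instance.tr g g.2
        (congrArg Subtype.val (mem_centralizer_singleton_iff.1 hg))
    by_cases h : ∃ a ∈ centralizer ({BDisp.t₀} : Set M.G), a ∉ MM M
    · obtain ⟨a, ha, hna⟩ := h
      refine ⟨a, ha, fun b hb => ?_⟩
      by_cases hb' : b ∈ MM M
      · exact Or.inr hb'
      · left
        have e1 := (key a ha).resolve_left hna
        have e2 := (key b hb).resolve_left hb'
        show ((b * a : M.G) : BabyM.Conc.V ≃ₗ[ℚ] BabyM.Conc.V) M.d₀ = M.d₀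
        rw [Subgroup.coe_mul, LinearEquiv.mul_apply, e1, map_neg, e2, neg_neg]
    · refine ⟨1, Subgroup.one_mem _, fun b hb => Or.inr ?_⟩
      by_contra hb'
      exact h ⟨b, hb, hb'⟩
  exact Nat.le_of_dvd (by norm_num) h2

theorem relIndex_map (g : M.G) : ((MM M).map (MulAut.conj g).toMonoidHom).relIndex
    (centralizer ({g * BDisp.t₀ * g⁻¹} : Set M.G)) ≤ 2 := by
  have h1 := BOne.relIndex_conj (A := (MM M).map (MulAut.conj g).toMonoidHom) g BDisp.t₀
  rw [← h1]
  have h2 : ((MM M).map (MulAut.conj g).toMonoidHom).map (MulAut.conj g⁻¹).toMonoidHom = MM M := by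
    ext x
    rw [Subgroup.mem_map_equiv, Subgroup.mem_map_equiv, MulAut.conj_symm_apply, MulAut.conj_symm_apply]
    have : g⁻¹ * (g⁻¹⁻¹ * x * g⁻¹) * g = x := by group
    rw [this]
  rw [h2]
  exact relIndex_MM

theorem exists_involution {R : Subgroup M.G} (h2 : IsPGroup 2 R) (h1 : Nat.card R ≠ 1) :
    ∃ v ∈ R, v ≠ 1 ∧ v * v = 1 := by
  have := BOne.finG
  have hp : Fact (Nat.Prime 2) := ⟨Nat.prime_two⟩
  obtain ⟨n, hn⟩ := IsPGroup.iff_card.1 h2
  have hd : 2 ∣ Nat.card R := by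
    rw [hn] at h1 ⊢
    exact dvd_pow_self 2 (fun h => h1 (by rw [h, pow_zero]))
  obtain ⟨v, hv⟩ := exists_prime_orderOf_dvd_card' 2 hd
  refine ⟨v, v.2, ?_, ?_⟩
  · intro h
    have h3 : v = 1 := Subtype.ext h
    rw [h3, orderOf_one] at hv
    exact absurd hv (by norm_num)
  · have h3 := pow_orderOf_eq_one v
    rw [hv, pow_two] at h3
    exact congrArg Subtype.val h3

/-- counting in a 2-subgroup -/
theorem count {A N C : Subgroup M.G} (hA : A.relIndex C ≤ 3157) (hN : N.relIndex C ≤ 2) (hC : 2 ^ 26 ∣ Nat.card C) :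
    ∃ v ∈ A ⊓ N, v ≠ 1 ∧ v * v = 1 := by
  have hfin := BOne.finG
  have hp : Fact (Nat.Prime 2) := ⟨Nat.prime_two⟩
  obtain ⟨K, hK⟩ := Sylow.exists_subgroup_card_pow_prime 2 hC
  set R : Subgroup M.G := K.map C.subtype with hR
  have hRC : R ≤ C := map_subtype_le K
  have hcR : Nat.card R = 2 ^ 26 := by
    rw [hR, ← Nat.card_congr (K.equivMapOfInjective _ C.subtype_injective).toEquiv, hK]
  have hR2 : IsPGroup 2 R := IsPGroup.of_card hcR
  have ne0 : ∀ (X Y : Subgroup M.G), X.relIndex Y ≠ 0 := by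
    intro X Y
    unfold Subgroup.relIndex
    exact Subgroup.index_ne_zero_of_finite
  have c1 : ∀ X Y : Subgroup M.G, Nat.card ↥(X ⊓ Y) * X.relIndex Y = Nat.card Y := by
    intro X Y
    have h6 := Subgroup.card_mul_index ((X ⊓ Y).subgroupOf Y)
    rw [Nat.card_congr (subgroupOfEquivOfLe (inf_le_right : X ⊓ Y ≤ Y)).toEquiv] at h6
    rw [← inf_relIndex_right]
    exact h6
  have h1 := c1 N R
  have h2 : N.relIndex R ≤ 2 := le_trans (relIndex_le_of_le_right hRC (ne0 _ _)) hN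
  have h3 : 2 ^ 25 ≤ Nat.card ↥(N ⊓ R) := by
    have h4 : Nat.card ↥(N ⊓ R) * N.relIndex R ≤ Nat.card ↥(N ⊓ R) * 2 := Nat.mul_le_mul_left _ h2
    rw [h1, hcR] at h4
    norm_num at h4 ⊢
    omega
  have h4 := c1 A (N ⊓ R)
  have h5 : A.relIndex (N ⊓ R) ≤ 3157 := le_trans (relIndex_le_of_le_right (inf_le_right.trans hRC) (ne0 _ _)) hA
  have h6 : Nat.card ↥(A ⊓ (N ⊓ R)) ≠ 1 := by
    intro h7
    rw [h7, one_mul] at h4
    rw [← h4] at h3
    norm_num at h3
    omega
  obtain ⟨v, hv, hv1, hv2⟩ := exists_involution (R := A ⊓ (N ⊓ R))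
    (hR2.to_le (inf_le_right.trans inf_le_right)) h6
  exact ⟨v, ⟨hv.1, hv.2.1⟩, hv1, hv2⟩

/-- **Products of commuting transpositions.** -/
theorem exists_M {A : Subgroup M.G} {Γ : Subgroup (MulAut M.G)} (h : IF A Γ) {t e : M.G}
    (ht : t ∈ cls ⊤ (tt BabyM.Instance.all)) (he : e ∈ cls ⊤ (tt BabyM.Instance.all)) (hte : t * e = e * t)
    (hne : t ≠ e) (hA : t * e ∈ A) : ∃ v ∈ A, v ≠ 1 ∧ v * v = 1 ∧ ∃ g, g * v * g⁻¹ ∈ MM M := by
  have hfin := BOne.finG
  have hsim := BabyM.Instance.all.simple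
  obtain ⟨g, -, hg⟩ := ht
  obtain ⟨k, -, hk⟩ := he
  change g * BDisp.t₀ * g⁻¹ = t at hg
  change k * BDisp.t₀ * k⁻¹ = e at hk
  have hct : IsConj BDisp.t₀ t := isConj_iff.2 ⟨g, hg⟩
  have hce : IsConj BDisp.t₀ e := isConj_iff.2 ⟨k, hk⟩
  have hsq : ∀ {x y : M.G}, y * BDisp.t₀ * y⁻¹ = x → x * x = 1 := by
    rintro _ y rfl
    calc y * BDisp.t₀ * y⁻¹ * (y * BDisp.t₀ * y⁻¹) = y * (BDisp.t₀ * BDisp.t₀) * y⁻¹ := by group
      _ = 1 := by rw [BDisp.t₀_sq]; group
  have ht2 := hsq hg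
  have he2 := hsq hk
  set u := t * e with hu
  have hou : orderOf u = 2 := by
    refine orderOf_eq_prime ?_ ?_
    · rw [pow_two, hu]
      have hte' : e * t = t * e := hte.symm
      calc t * e * (t * e) = t * (e * t) * e := by simp only [mul_assoc]
        _ = (t * t) * (e * e) := by rw [hte']; simp only [mul_assoc]
        _ = 1 := by rw [ht2, he2, mul_one]
    · intro h1
      apply hne
      have h2 : t = e⁻¹ := mul_eq_one_iff_eq_inv.1 h1
      rw [h2]
      exact (eq_inv_of_mul_eq_one_left he2).symm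
  set C := centralizer ({t} : Set M.G) ⊓ centralizer ({e} : Set M.G) with hC
  have hCu : C ≤ centralizer ({u} : Set M.G) := by
    intro x hx
    have h1 := mem_centralizer_singleton_iff.1 hx.1
    have h2 := mem_centralizer_singleton_iff.1 hx.2
    rw [mem_centralizer_singleton_iff, hu]
    calc x * (t * e) = (x * t) * e := by group
      _ = t * (x * e) := by rw [h1]; group
      _ = t * e * x := by rw [h2]; group
  obtain ⟨n, hn, hc⟩ := BPair.pair_card' hct hce hne hte
  have h3 := (H999.IFB.IF.E2' h BOne.hna hA hou).2.2.2.2 C hCu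
  have h4 : (centralizer ({u} : Set M.G)).index ≤ 13571955000 * 23113728 := by
    have h5 := card_mul_index (centralizer ({u} : Set M.G))
    rw [BabyM.Instance.all.card_G, ← hc] at h5
    have h6 : Nat.card C ≤ Nat.card (centralizer ({u} : Set M.G)) :=
      Subgroup.card_le_of_le hCu
    have h7 : 0 < Nat.card C := Nat.card_pos
    have h8 : Nat.card C * (centralizer ({u} : Set M.G)).index ≤ Nat.card C * (13571955000 * n) := by
      rw [← hC] at h5
      rw [← h5]
      exact Nat.mul_le_mul_right _ h6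
    have h9 := Nat.le_of_mul_le_mul_left h8 h7
    rcases hn with rfl | rfl <;> omega
  have h5 : A.relIndex C ≤ 3157 := by
    by_contra hcon
    push Not at hcon
    have h5 : 3158 ^ 5 ≤ A.relIndex C ^ 5 := Nat.pow_le_pow_left hcon 5
    have h6 := lt_of_lt_of_le (lt_of_le_of_lt h5 h3.1) h4
    norm_num at h6
  have h6 : 2 ^ 26 ∣ Nat.card C := by
    rw [← hC] at hc
    rcases hn with rfl | rfl
    · omega
    · omega
  have h7 : ((MM M).map (MulAut.conj g).toMonoidHom).relIndex C ≤ 2 := by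
    refine le_trans (relIndex_le_of_le_right inf_le_left ?_) ?_
    · unfold Subgroup.relIndex
      exact Subgroup.index_ne_zero_of_finite
    · rw [← hg]
      exact relIndex_map g
  obtain ⟨v, ⟨hvA, hvN⟩, hv1, hv2⟩ := count h5 h7 h6
  refine ⟨v, hvA, hv1, hv2, g⁻¹, ?_⟩
  obtain ⟨w, hw, rfl⟩ := hvN
  have h8 : g⁻¹ * (MulAut.conj g).toMonoidHom w * g⁻¹⁻¹ = w := by
    show g⁻¹ * (g * w * g⁻¹) * g⁻¹⁻¹ = w
    group
  rw [h8]
  exact hw

end Cfsg.Agent.H465.IF.BExM
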